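import Cfsg.Agent.Lib.Helper29.SuzC.Data

set_option autoImplicit false
set_option Elab.async false

namespace Cfsg.Agent.Lib.Helper29.SuzC

open Cfsg.Agent.Lib.Helper29.TcTrace Cfsg.Agent.Lib.Helper29.TcCert Cfsg.Agent.Lib.Helper29.TcPerm

theorem lblk_0 : chkPBlk P 4 15 256 280 0 0x1424231423344141423342342414242344334141423434313421423434241423434142342423413424192213134234423134243443142332443434434231342344141342411342124143312424142241214231234142314232321423423434123423414223414233423143231294433444424142414234234434134241423490 = true := by decide +kernel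
theorem lblk_1 : chkPBlk P 4 15 256 280 1 0x432441424414224123424234 = true := by decide +kernel
theorem lo_0_1 : ∀ b, 0 ≤ b → b < 1 → ∃ J, chkPBlk P 4 15 256 280 b J = true := fun b h1 h2 => by
  have hb : b = 0 := Nat.le_antisymm (Nat.le_of_lt_succ h2) h1
  subst hb; exact ⟨_, lblk_0⟩
theorem lo_1_2 : ∀ b, 1 ≤ b → b < 2 → ∃ J, chkPBlk P 4 15 256 280 b J = true := fun b h1 h2 => by
  have hb : b = 1 := Nat.le_antisymm (Nat.le_of_lt_succ h2) h1
  subst hb; exact ⟨_, lblk_1⟩
theorem lo_0_2 : ∀ b, 0 ≤ b → b < 2 → ∃ J, chkPBlk P 4 15 256 280 b J = true := fun b h1 h2 =>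
  if h : b < 1 then lo_0_1 b h1 h else lo_1_2 b (Nat.le_of_not_lt h) h2

end Cfsg.Agent.Lib.Helper29.SuzC
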